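import Cfsg.Agent.H118.OC.PsuCus
import Cfsg.Agent.H993.OC.Eng
import Cfsg.Agent.H898.OC.Omk
import Cfsg.Agent.H328.Ext.PsuLevi
import Cfsg.Agent.H328.Gow.RowPsu

/-!
# S4891, defining characteristic: the row `PSU_n(q)`, `n ≥ 4` (helper118)
-/

set_option autoImplicit false

open scoped ComplexConjugate
open Cfsg

namespace Cfsg.Agent.H118.OC

open Cfsg.Agent.Characters Cfsg.Agent.H53.HC Cfsg.Agent.H477.HC Cfsg.Agent.H576.Ext
  Cfsg.Agent.H328.Gow Cfsg.Agent.H328.Ext Cfsg.Agent.H464.ExtR3 Cfsg.Agent.H993.OC Cfsg.Agent.H477.HC.CForm Module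

universe u v

/-- **`PSU_n(q)`, `n ≥ 4`, in defining characteristic** -/
theorem row_psu {p : ℕ} [Fact p.Prime] (hp2 : p ≠ 2) (K : Type u) [Field K] [Fintype K] [CharP K p] (n q : ℕ)
    (hF : Fintype.card K = q ^ 2) (hn : 4 ≤ n) : OCRow p (PSU n K q) := by
  classical
  have hq : Nat.card K = q ^ 2 := by rw [Nat.card_eq_fintype_card, hF]
  obtain ⟨m, rfl⟩ : ∃ m, n = 2 + (2 + m) := ⟨n - 4, by omega⟩
  obtain ⟨⟨W, hW⟩, -⟩ := CForm.hermF_frame (K := K) (p := p) hq 2 m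
  have hfi := finite_iso (CForm.hermF K hq (2 + (2 + m)))
  have := finite_Om (CForm.hermF K hq (2 + (2 + m))) 2
  let _ := Fintype.ofFinite ((CForm.hermF K hq (2 + (2 + m))).Om 2)
  have hq3 : 3 ≤ q := by
    have h1 : 1 < q ^ 2 := by rw [← hq]; exact Finite.one_lt_card
    have h2 : q ≠ 0 := by
      rintro rfl
      simp at h1
    have h3 : q ≠ 1 := by
      rintro rfl
      simp at h1
    have h4 : q ≠ 2 := by
      rintro rfl
      have h5 : p ∣ 2 ^ 2 := by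
        rw [← hF]
        exact (CharP.cast_eq_zero_iff K p _).1 (FiniteField.cast_card_eq_zero K)
      exact hp2 ((Nat.prime_dvd_prime_iff_eq (Fact.out : p.Prime) Nat.prime_two).1
        ((Fact.out : p.Prime).dvd_of_dvd_pow h5))
    omega
  obtain ⟨c, hc⟩ := exists_cherm (K := K) hp2 hq (powHom hq) (powHom_apply hq)
  obtain ⟨d, hd1, hd2, hd3⟩ := hc.deg
  have hirr : IsIrrCharacter (sg (CForm.hermF K hq (2 + (2 + m))))
      (fun x : sg (CForm.hermF K hq (2 + (2 + m))) => (CForm.hermF K hq (2 + (2 + m))).hc c (fun _ _ => 1) x) :=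
    isIrr_hc_sub (CForm.hermF K hq (2 + (2 + m))) le_rfl (hasRoots_sg hq hq3) (hasLevi_bot _ (hasRoots_sg hq hq3) 2)
      hc.irr hc.cusp hc.self hc.opp hW (trans_sg _ (hdet_herm hF hq _) two_pos hW)
  intro A hA
  have hpos : 0 < Nat.card ((CForm.hermF K hq (2 + (2 + m))).Om 2) := by
    have : Nonempty ((CForm.hermF K hq (2 + (2 + m))).Om 2) := ⟨⟨W, hW⟩⟩
    exact Nat.card_pos
  refine hc_wt (Cfsg.Agent.H328.Ext.psuQ hF hq hn) (Core.isIrr_isClassFunction hc.irr) hirr hd1 hd2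
    (Cfsg.Agent.H898.OC.omk (CForm.hermF K hq (2 + (2 + m))) hp2 2 ⟨W, hW⟩) ?_ hc.rat hc.fix
    (fun _ z _ => hc.scal z) hA fun α _ => mem_autG.2 (Cfsg.Agent.H328.Ext.psuQ_ind hF hq hn α)
  calc 1 < d := hd3
    _ ≤ _ := Nat.le_mul_of_pos_left d hpos

end Cfsg.Agent.H118.OC
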