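import Cfsg.Agent.H898.OC.Cus

/-!
# A cuspidal character of `GL_2(K)`, `|K| = q ^ 2`, for the own-characteristic row of `PSU_n(q)` (S4891, helper118)

`K` of odd characteristic `p`, `|K| = Q ^ p ^ j`, `Q = p ^ f₀`, `p ∤ f₀`; `ψ_θ`, `θ` of order `(Q + 1) / 2` on the units of the
quadratic extension of `K`.
-/

set_option autoImplicit false

open scoped ComplexConjugate
open Cfsg

namespace Cfsg.Agent.H118.OC

open Cfsg.Agent.Characters Cfsg.Agent.H53.HC Cfsg.Agent.H477.HC Cfsg.Agent.H139.Cusp Cfsg.Agent.H576.Ext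
  Cfsg.Agent.H328.Gow Cfsg.Agent.H699.CusG Cfsg.Agent.H898.OC Module
open Cfsg.Agent.H145.BR (PRat)

universe u v

/-- the cuspidal datum of the unitary row -/
structure CHerm (p : ℕ) (K : Type u) [Field K] (σ : K →+* K) (c : GL (Fin 2) K → ℂ) : Prop where
  irr : IsIrrCharacter _ c
  cusp : IsCusp c
  self : DIrr ⊥ c
  opp : DOrth ⊥ c (dualc σ c)
  rat : PRat p c
  fix : ∀ τ : K ≃+* K, ∃ m : ℕ, ¬ p ∣ m ∧ fmap ((τ ^ m : K ≃+* K) : K →+* K) c = c
  deg : ∃ d : ℕ, c 1 = d ∧ ¬ p ∣ d ∧ 1 < d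
  scal : ∀ z : Kˣ, c (Matrix.GeneralLinearGroup.scalar (Fin 2) z) = c 1

variable {K : Type u} [Field K] [Finite K] {p : ℕ} [hp : Fact p.Prime] [CharP K p]

/-- **the datum** -/
theorem exists_cherm (hp2 : p ≠ 2) {q : ℕ} (hq : Nat.card K = q ^ 2) (σ : K →+* K) (hσ : ∀ x, σ x = x ^ q) :
    ∃ c : GL (Fin 2) K → ℂ, CHerm p K σ c := by
  classical
  have hpp : p.Prime := hp.out
  obtain ⟨f₀, j, hf, hK⟩ := exists_f₀ (p := p) K
  obtain ⟨Q, hQ⟩ : ∃ Q, Q = p ^ f₀ := ⟨_, rfl⟩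
  have hQ0 : 0 < Q := by rw [hQ]; exact pow_pos hpp.pos _
  have hKQ : Nat.card K = Q ^ p ^ j := by rw [hK, hQ, pow_mul]
  have hKpos : 0 < Nat.card K := Nat.card_pos
  have hpodd : Odd p := hpp.odd_of_ne_two hp2
  have hf0 : f₀ ≠ 0 := fun h0 => hf (by rw [h0]; exact dvd_zero p)
  -- `q` is a power of `p`
  obtain ⟨s, hs⟩ : ∃ s, q = p ^ s := by
    have h1 : q ∣ p ^ (f₀ * p ^ j) := by rw [← hK, hq, pow_two]; exact dvd_mul_left q q
    obtain ⟨s, -, hs⟩ := (Nat.dvd_prime_pow hpp).1 h1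
    exact ⟨s, hs⟩
  have hqodd : Odd q := by rw [hs]; exact hpodd.pow
  -- `Q` is a square
  obtain ⟨Q₀, hQ₀, hQ₀o⟩ : ∃ Q₀, Q = Q₀ ^ 2 ∧ Odd Q₀ := by
    have h1 : 2 * s = f₀ * p ^ j := by
      apply Nat.pow_right_injective hpp.two_le
      change p ^ (2 * s) = p ^ (f₀ * p ^ j)
      rw [← hK, hq, hs, ← pow_mul, mul_comm]
    have h2 : Even (f₀ * p ^ j) := ⟨s, by omega⟩
    have h3 : Even f₀ := by
      rcases Nat.even_mul.1 h2 with h | h
      · exact h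
      · exact absurd h (Nat.not_even_iff_odd.2 hpodd.pow)
    obtain ⟨t, ht⟩ := h3
    exact ⟨p ^ t, by rw [hQ, ht, ← pow_mul]; congr 1; omega, hpodd.pow⟩
  have hQ₀3 : 3 ≤ Q₀ := by
    obtain ⟨m, hm⟩ := hQ₀o
    have : Q₀ ≠ 1 := fun h => by
      have h1 : Q = 1 := by rw [hQ₀, h, one_pow]
      rw [hQ] at h1
      exact absurd (Nat.pow_eq_one.1 h1) (by
        push Not
        exact ⟨hpp.one_lt.ne', hf0⟩)
    omega
  -- `e = (Q + 1) / 2` is odd
  obtain ⟨e, he, heo, he5⟩ : ∃ e, Q + 1 = 2 * e ∧ Odd e ∧ 5 ≤ e := by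
    obtain ⟨m, hm⟩ := hQ₀o
    refine ⟨2 * (m * (m + 1)) + 1, ?_, ⟨m * (m + 1), rfl⟩, ?_⟩
    · rw [hQ₀, hm]; ring
    · have : 1 ≤ m := by omega
      nlinarith
  have hodd : Odd (p ^ j) := hpodd.pow
  -- `e ∣ |K| + 1`
  have heK : e ∣ Nat.card K + 1 := by
    have h1 : Q + 1 ∣ Q ^ p ^ j + 1 := by simpa using hodd.nat_add_dvd_pow_add_pow Q 1
    rw [hKQ]
    exact (Dvd.intro_left 2 he.symm).trans h1
  obtain ⟨b, hb⟩ := heK
  obtain ⟨L, _, _, _, hL⟩ := exists_L K 2 (by norm_num)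
  obtain ⟨φ, hφ⟩ := exists_theta L
  have hK2 : 1 < Nat.card K := Finite.one_lt_card
  have hcardL : Nat.card Lˣ = Nat.card K ^ 2 - 1 := by
    rw [Nat.card_units, Module.natCard_eq_pow_finrank (K := K), hL]
  have hsq : Nat.card K ^ 2 - 1 = (Nat.card K - 1) * (Nat.card K + 1) := by
    rw [← one_pow 2, Nat.sq_sub_sq, mul_comm]
    simp
  obtain ⟨a, ha⟩ : ∃ a, a = (Nat.card K - 1) * b := ⟨_, rfl⟩
  have hae : Nat.card K ^ 2 - 1 = e * a := by rw [hsq, hb, ha]; ring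
  have hb0 : b ≠ 0 := by
    rintro rfl
    rw [mul_zero] at hb
    omega
  have ha0 : a ≠ 0 := by
    rw [ha]
    exact Nat.mul_ne_zero (by omega) hb0
  have hM : (Nat.card K + 1) * (⊥ : Subgroup Kˣ).index = Nat.card K ^ 2 - 1 := by
    rw [Subgroup.index_bot, Nat.card_units, hsq, mul_comm]
  have hqpos : q ≠ 0 := by
    rintro rfl
    rw [hq] at hKpos
    simp at hKpos
  -- no prime factor of `e` divides `2`, `q`
  have hco2 : IsCoprime (e : ℤ) 2 := by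
    have := Nat.isCoprime_iff_coprime.2 (Nat.coprime_two_right.2 heo)
    exact_mod_cast this
  have hKe : (e : ℤ) ∣ (Nat.card K : ℤ) + 1 := by
    have : e ∣ Nat.card K + 1 := ⟨b, hb⟩
    exact_mod_cast this
  have hqz : (Nat.card K : ℤ) = (q : ℤ) ^ 2 := by exact_mod_cast hq
  have hcoq : IsCoprime (e : ℤ) (q : ℤ) := by
    obtain ⟨t, ht⟩ := hKe
    refine ⟨t, -(q : ℤ), ?_⟩
    rw [hqz] at ht
    linear_combination -ht
  -- the basic non-divisibility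
  have key : ∀ i : ℕ, ¬ (e : ℤ) ∣ ((Nat.card K : ℤ) - 1) * ((q : ℤ) ^ i * ((q : ℤ) + 1)) := by
    intro i h
    have h1 : (e : ℤ) ∣ (-2) * ((q : ℤ) ^ i * ((q : ℤ) + 1)) := by
      obtain ⟨t, ht⟩ := h
      obtain ⟨t', ht'⟩ := hKe
      refine ⟨t - t' * ((q : ℤ) ^ i * ((q : ℤ) + 1)), ?_⟩
      linear_combination ht - ((q : ℤ) ^ i * ((q : ℤ) + 1)) * ht'
    have h2 : (e : ℤ) ∣ (q : ℤ) ^ i * ((q : ℤ) + 1) := by
      have : (-2 : ℤ) * ((q : ℤ) ^ i * ((q : ℤ) + 1)) = -(2 * ((q : ℤ) ^ i * ((q : ℤ) + 1))) := by ring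
      rw [this, dvd_neg] at h1
      exact hco2.dvd_of_dvd_mul_left h1
    have h3 : (e : ℤ) ∣ (q : ℤ) + 1 := (hcoq.pow_right (n := i)).dvd_of_dvd_mul_left h2
    have h4 : (e : ℤ) ∣ 2 := by
      obtain ⟨t, ht⟩ := h3
      obtain ⟨t', ht'⟩ := hKe
      refine ⟨t' - ((q : ℤ) - 1) * t, ?_⟩
      rw [hqz] at ht'
      linear_combination ht' - ((q : ℤ) - 1) * ht
    have h5 : e ∣ 2 := by exact_mod_cast h4
    exact absurd (Nat.le_of_dvd two_pos h5) (by omega)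
  have key2 : ¬ (e : ℤ) ∣ ((Nat.card K : ℤ) - 1) * ((Nat.card K : ℤ) - 1) := by
    intro h
    have h1 : (e : ℤ) ∣ 2 * 2 := by
      obtain ⟨t, ht⟩ := h
      obtain ⟨t', ht'⟩ := hKe
      refine ⟨t - t' * ((Nat.card K : ℤ) - 3), ?_⟩
      linear_combination ht - ((Nat.card K : ℤ) - 3) * ht'
    have h2 : (e : ℤ) ∣ 2 := hco2.dvd_of_dvd_mul_left h1
    have h5 : e ∣ 2 := by exact_mod_cast h2
    exact absurd (Nat.le_of_dvd two_pos h5) (by omega)
  have hbz : (b : ℤ) ≠ 0 := Nat.cast_ne_zero.2 hb0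
  have hMz : ((Nat.card K + 1 : ℕ) : ℤ) = b * e := by rw [hb]; push_cast; ring
  have haz : (a : ℤ) = b * ((Nat.card K : ℤ) - 1) := by
    rw [ha]
    push_cast [Nat.cast_sub hK2.le]
    ring
  have hdirr : DIrr ⊥ (psi (n := 2) (F := K) L (powTheta φ a ha0)) := by
    refine dirr_pow hφ hL two_pos ⊥ hM ha0 fun i h0 hi h => key2 ?_
    have hi1 : i = 1 := by omega
    rw [hi1, pow_one, hMz, haz] at h
    have h1 : (b : ℤ) * ((Nat.card K : ℤ) - 1) - b * ((Nat.card K : ℤ) - 1) * (Nat.card K : ℤ) =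
        b * -(((Nat.card K : ℤ) - 1) * ((Nat.card K : ℤ) - 1)) := by ring
    rw [h1] at h
    exact (dvd_neg).1 (Int.dvd_of_mul_dvd_mul_left hbz h)
  have hR : Regular K 2 (powTheta φ a ha0) := (regular_powTheta_iff hφ ha0 hL).2 fun i h0 hi hd => by
    have hi1 : i = 1 := by omega
    rw [hi1, pow_one, hae, mul_comm e a] at hd
    have h1 := Nat.dvd_of_mul_dvd_mul_left (Nat.pos_of_ne_zero ha0) hd
    apply key2
    have h2 : (e : ℤ) ∣ (Nat.card K : ℤ) - 1 := by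
      have := Int.natCast_dvd_natCast.2 h1
      rwa [Nat.cast_sub hK2.le, Nat.cast_one] at this
    exact h2.mul_right _
  have hirr : IsIrrCharacter _ (psi (n := 2) (F := K) L (powTheta φ a ha0)) := psi_isIrr _ hL hR
  have hpK : p ∣ Nat.card K := by
    rw [hK]
    exact dvd_pow_self p (Nat.mul_ne_zero hf0 (pow_ne_zero _ hpp.ne_zero))
  have hdual : dualc σ (psi (n := 2) (F := K) L (powTheta φ a ha0)) =
      psi L (conjTheta (powTheta φ (a * q) (Nat.mul_ne_zero ha0 hqpos))) := by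
    rw [dualc_psi hL (p := p) (j := s) (σ := σ) (fun x => by rw [hσ, hs])]
    congr 2
    ext x
    rw [powTheta_apply, powTheta_apply, powTheta_apply, ← pow_mul, hs]
  refine ⟨psi L (powTheta φ a ha0), hirr, psi_isCusp L _, hdirr, ?_, ?_, ?_, ?_, ?_⟩
  · rw [hdual]
    refine dorth_pow_conj hφ hL ⊥ hM ha0 _ fun i hi h => ?_
    have hi1 : i = 0 ∨ i = 1 := by omega
    rw [hMz, haz] at h
    rcases hi1 with rfl | rfl
    · have h1 : ((a * q : ℕ) : ℤ) + b * ((Nat.card K : ℤ) - 1) * (Nat.card K : ℤ) ^ 0 =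
          b * (((Nat.card K : ℤ) - 1) * ((q : ℤ) ^ 0 * ((q : ℤ) + 1))) := by
        push_cast
        rw [haz]
        ring
      rw [h1] at h
      exact key 0 (Int.dvd_of_mul_dvd_mul_left hbz h)
    · have h1 : ((a * q : ℕ) : ℤ) + b * ((Nat.card K : ℤ) - 1) * (Nat.card K : ℤ) ^ 1 =
          b * (((Nat.card K : ℤ) - 1) * ((q : ℤ) ^ 1 * ((q : ℤ) + 1))) := by
        push_cast
        rw [haz, hqz]
        ring
      rw [h1] at h
      exact key 1 (Int.dvd_of_mul_dvd_mul_left hbz h)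
  · refine pRat_psi ?_ hirr
    rw [hcardL]
    exact not_dvd_pow_sub_one hpK hKpos (by norm_num)
  · intro τ
    refine ⟨f₀, hf, ?_⟩
    obtain ⟨i, hi⟩ := H993.OC.frob_pow (p := p) f₀ τ
    rw [fmap_psi hL (p := p) (j := f₀ * i) (τ := ((τ ^ f₀ : K ≃+* K) : K →+* K)) hi]
    have hQ2 : e ∣ Q ^ 2 - 1 := by
      have : Q ^ 2 - 1 = (Q + 1) * (Q - 1) := by
        rw [← one_pow 2, Nat.sq_sub_sq]
        simp
      rw [this, he]
      exact ⟨2 * (Q - 1), by ring⟩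
    have hp2' : p ^ j * (i % 2) ≡ i [MOD 2] := by
      have h1 : p ^ j ≡ 1 [MOD 2] := Nat.odd_iff.1 hodd
      have h2 := h1.mul (Nat.mod_modEq i 2)
      rwa [one_mul] at h2
    have h1 : (p ^ (f₀ * i)) ≡ Nat.card K ^ (i % 2) [MOD e] := by
      rw [pow_mul, ← hQ, hKQ, ← pow_mul]
      exact pow_modEq hQ0 hQ2 hp2'.symm
    refine psi_congr hL hR (i := i % 2) (Nat.mod_lt _ (by norm_num)) fun x => ?_
    have hb' : a * p ^ (f₀ * i) ≠ 0 := Nat.mul_ne_zero ha0 (pow_ne_zero _ hpp.ne_zero)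
    have h2 := (powTheta_eq_iff hφ ha0 hb' (pow_ne_zero (i % 2) hKpos.ne')).2 (by
      rw [hcardL, hae, mul_comm e a]
      exact h1.mul_left' a) x
    rw [← h2, powTheta_apply, powTheta_apply, powTheta_apply, ← pow_mul]
  · refine ⟨_, psi_one L _ (by norm_num), ?_, ?_⟩
    · rw [degP_eq_Ico, hpp.prime.dvd_finsetProd_iff]
      rintro ⟨i, hi, hd⟩
      rw [Finset.mem_Ico] at hi
      exact not_dvd_pow_sub_one hpK hKpos (by omega) hd
    · rw [degP_eq_Ico]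
      simp only [Nat.Ico_succ_singleton, Finset.prod_singleton, pow_one]
      rw [hq]
      have : 3 ≤ q := by
        obtain ⟨m, hm⟩ := hqodd
        have : q ≠ 1 := fun h => by
          rw [hq, h, one_pow] at hK2
          exact lt_irrefl _ hK2
        omega
      have h9 : 9 ≤ q ^ 2 := by nlinarith
      omega
  · intro z
    have h4 := psi_scalar (powTheta φ a ha0) hL z 1
    rw [mul_one] at h4
    rw [h4, powTheta_algebraMap ha0 (Dvd.intro _ ha.symm) z.ne_zero, one_mul]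

end Cfsg.Agent.H118.OC
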